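import Mathlib
import Cfsg.Prelude.Def_GeometricClasses
import Cfsg.Agent.Lib.Helper6.SpMax
import Cfsg.Agent.Lib.Helper6.SympBasis

set_option autoImplicit false

namespace Cfsg.Agent.Lib.Helper6

open Matrix Cfsg

variable {F : Type*} [Field F] {m : ℕ}

/-- non-degenerate subspace. -/
def NDeg (X : Submodule F (Fin m ⊕ Fin m → F)) : Prop :=
  ∀ w ∈ X, w ≠ 0 → ∃ x ∈ X, sympForm m F w x ≠ 0

theorem mem_perp_iff (X : Submodule F (Fin m ⊕ Fin m → F)) (x : Fin m ⊕ Fin m → F) :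
    x ∈ (sympB m F).orthogonal X ↔ ∀ w ∈ X, sympForm m F x w = 0 := by
  rw [LinearMap.BilinForm.mem_orthogonal_iff]
  constructor
  · intro h w hw
    have h1 : sympForm m F w x = 0 := h w hw
    rw [sympForm_swap, h1, neg_zero]
  · intro h w hw
    show sympForm m F w x = 0
    rw [sympForm_swap, h w hw, neg_zero]

theorem ndeg_restrict {X : Submodule F (Fin m ⊕ Fin m → F)} (hX : NDeg X) :
    ((sympB m F).restrict X).Nondegenerate := by
  constructor
  · rintro ⟨x, hx⟩ h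
    by_contra hne
    have hx0 : x ≠ 0 := fun e => hne (Subtype.ext e)
    obtain ⟨y, hy, hxy⟩ := hX x hx hx0
    exact hxy (h ⟨y, hy⟩)
  · rintro ⟨x, hx⟩ h
    by_contra hne
    have hx0 : x ≠ 0 := fun e => hne (Subtype.ext e)
    obtain ⟨y, hy, hxy⟩ := hX x hx hx0
    apply hxy
    have h1 : sympForm m F y x = 0 := h ⟨y, hy⟩
    rw [sympForm_swap, h1, neg_zero]

theorem ndeg_isCompl {X : Submodule F (Fin m ⊕ Fin m → F)} (hX : NDeg X) :
    IsCompl X ((sympB m F).orthogonal X) :=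
  LinearMap.BilinForm.isCompl_orthogonal_of_restrict_nondegenerate sympB_isAlt.isRefl
    (ndeg_restrict hX)

theorem ndeg_split {X : Submodule F (Fin m ⊕ Fin m → F)} (hX : NDeg X)
    (x : Fin m ⊕ Fin m → F) :
    ∃ a ∈ X, ∃ b, (∀ w ∈ X, sympForm m F b w = 0) ∧ x = a + b := by
  have : x ∈ X ⊔ (sympB m F).orthogonal X := by rw [(ndeg_isCompl hX).sup_eq_top]; trivial
  obtain ⟨a, ha, b, hb, rfl⟩ := Submodule.mem_sup.mp this
  exact ⟨a, ha, b, (mem_perp_iff X b).mp hb, rfl⟩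

/-- non-degenerate subspaces of the same dimension are isometric. -/
theorem exists_isometry {X Y : Submodule F (Fin m ⊕ Fin m → F)} (hX : NDeg X) (hY : NDeg Y)
    (hdim : Module.finrank F X = Module.finrank F Y) :
    ∃ φ : X ≃ₗ[F] Y, ∀ x x' : X, sympForm m F (φ x : Fin m ⊕ Fin m → F) (φ x') =
      sympForm m F (x : Fin m ⊕ Fin m → F) x' := by
  have hAX : ((sympB m F).restrict X).IsAlt := fun x => sympForm_self (x : Fin m ⊕ Fin m → F)
  have hAY : ((sympB m F).restrict Y).IsAlt := fun x => sympForm_self (x : Fin m ⊕ Fin m → F)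
  obtain ⟨m₁, k₁, b₁, ef₁, ee₁, ff₁, r₁⟩ := exists_symp_basis _ hAX
  obtain ⟨m₂, k₂, b₂, ef₂, ee₂, ff₂, r₂⟩ := exists_symp_basis _ hAY
  have hk₁ : k₁ = 0 := by
    by_contra hne
    obtain ⟨j⟩ : Nonempty (Fin k₁) := ⟨⟨0, Nat.pos_of_ne_zero hne⟩⟩
    exact b₁.ne_zero (Sum.inr j) ((ndeg_restrict hX).1 _ (r₁ j))
  have hk₂ : k₂ = 0 := by
    by_contra hne
    obtain ⟨j⟩ : Nonempty (Fin k₂) := ⟨⟨0, Nat.pos_of_ne_zero hne⟩⟩
    exact b₂.ne_zero (Sum.inr j) ((ndeg_restrict hY).1 _ (r₂ j))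
  subst hk₁ hk₂
  have c₁ := Module.finrank_eq_card_basis b₁
  have c₂ := Module.finrank_eq_card_basis b₂
  simp only [Fintype.card_sum, Fintype.card_fin] at c₁ c₂
  have hm : m₁ = m₂ := by omega
  subst hm
  refine ⟨b₁.equiv b₂ (Equiv.refl _), ?_⟩
  have key : ((sympB m F).restrict Y).comp (b₁.equiv b₂ (Equiv.refl _)).toLinearMap
      (b₁.equiv b₂ (Equiv.refl _)).toLinearMap = (sympB m F).restrict X := by
    apply LinearMap.BilinForm.ext_basis b₁
    intro i j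
    rw [LinearMap.BilinForm.comp_apply]
    simp only [LinearEquiv.coe_coe, Module.Basis.equiv_apply, Equiv.refl_apply]
    rcases i with (i | i) | i
    · rcases j with (j | j) | j
      · rw [ee₁, ee₂]
      · rw [ef₁, ef₂]
      · exact j.elim0
    · rcases j with (j | j) | j
      · rw [← LinearMap.IsAlt.neg hAX, ← LinearMap.IsAlt.neg hAY, ef₁, ef₂]
      · rw [ff₁, ff₂]
      · exact j.elim0
    · exact i.elim0
  intro x x'
  have := congrArg (fun B => B x x') key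
  exact this

/-- orthogonal expansion. -/
theorem form_three {X Y : Submodule F (Fin m ⊕ Fin m → F)}
    (hXY : ∀ x ∈ X, ∀ y ∈ Y, sympForm m F x y = 0)
    (r a b r' a' b' : Fin m ⊕ Fin m → F)
    (hrX : ∀ x ∈ X, sympForm m F r x = 0) (hrY : ∀ y ∈ Y, sympForm m F r y = 0)
    (hr'X : ∀ x ∈ X, sympForm m F r' x = 0) (hr'Y : ∀ y ∈ Y, sympForm m F r' y = 0)
    (ha : a ∈ X) (ha' : a' ∈ X) (hb : b ∈ Y) (hb' : b' ∈ Y) :
    sympForm m F (r + a + b) (r' + a' + b') =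
      sympForm m F r r' + sympForm m F a a' + sympForm m F b b' := by
  simp only [sympForm_add_left, sympForm_add_right]
  rw [hrX a' ha', hrY b' hb', sympForm_swap a r', hr'X a ha, hXY a ha b' hb',
    sympForm_swap b r', hr'Y b hb, sympForm_swap b a', hXY a' ha' b hb]
  ring

/-- the isometry interchanging two orthogonal non-degenerate subspaces of the same dimension and
fixing the vectors orthogonal to both. -/
theorem exists_swap {X Y : Submodule F (Fin m ⊕ Fin m → F)} (hX : NDeg X) (hY : NDeg Y)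
    (hdim : Module.finrank F X = Module.finrank F Y)
    (hXY : ∀ x ∈ X, ∀ y ∈ Y, sympForm m F x y = 0) :
    ∃ g ∈ spGL m F,
      (∀ x ∈ X, (g : Matrix (Fin m ⊕ Fin m) (Fin m ⊕ Fin m) F) *ᵥ x ∈ Y) ∧
      (∀ y ∈ Y, (g : Matrix (Fin m ⊕ Fin m) (Fin m ⊕ Fin m) F) *ᵥ y ∈ X) ∧
      (∀ z, (∀ x ∈ X, sympForm m F z x = 0) → (∀ y ∈ Y, sympForm m F z y = 0) →
        (g : Matrix (Fin m ⊕ Fin m) (Fin m ⊕ Fin m) F) *ᵥ z = z) := by
  obtain ⟨φ, hφ⟩ := exists_isometry hX hY hdim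
  have hφs : ∀ y y' : Y, sympForm m F (φ.symm y : Fin m ⊕ Fin m → F) (φ.symm y') =
      sympForm m F (y : Fin m ⊕ Fin m → F) y' := by
    intro y y'
    rw [← hφ, LinearEquiv.apply_symm_apply, LinearEquiv.apply_symm_apply]
  let πX := X.projectionOnto _ (ndeg_isCompl hX)
  let πY := Y.projectionOnto _ (ndeg_isCompl hY)
  have hπX : ∀ z, ∀ x ∈ X, sympForm m F (z - (πX z : Fin m ⊕ Fin m → F)) x = 0 := by
    intro z
    rw [← mem_perp_iff, ← Submodule.projectionOnto_apply_eq_zero_iff (ndeg_isCompl hX), map_sub,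
      Submodule.projectionOnto_apply_left, sub_self]
  have hπY : ∀ z, ∀ y ∈ Y, sympForm m F (z - (πY z : Fin m ⊕ Fin m → F)) y = 0 := by
    intro z
    rw [← mem_perp_iff, ← Submodule.projectionOnto_apply_eq_zero_iff (ndeg_isCompl hY), map_sub,
      Submodule.projectionOnto_apply_left, sub_self]
  let g₀ : (Fin m ⊕ Fin m → F) →ₗ[F] (Fin m ⊕ Fin m → F) :=
    LinearMap.id - X.subtype ∘ₗ πX - Y.subtype ∘ₗ πY + Y.subtype ∘ₗ φ.toLinearMap ∘ₗ πX
      + X.subtype ∘ₗ φ.symm.toLinearMap ∘ₗ πY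
  have hg₀ : ∀ z, g₀ z = (z - (πX z : Fin m ⊕ Fin m → F) - (πY z : Fin m ⊕ Fin m → F)) +
      (φ.symm (πY z) : Fin m ⊕ Fin m → F) + (φ (πX z) : Fin m ⊕ Fin m → F) := by
    intro z
    simp only [g₀, LinearMap.add_apply, LinearMap.sub_apply, LinearMap.id_apply,
      LinearMap.comp_apply, Submodule.subtype_apply, LinearEquiv.coe_coe]
    abel
  have hrX : ∀ z, ∀ x ∈ X, sympForm m F (z - (πX z : Fin m ⊕ Fin m → F) -
      (πY z : Fin m ⊕ Fin m → F)) x = 0 := by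
    intro z x hx
    rw [sympForm_sub_left, hπX z x hx, sympForm_swap, hXY x hx _ (πY z).2]
    simp
  have hrY : ∀ z, ∀ y ∈ Y, sympForm m F (z - (πX z : Fin m ⊕ Fin m → F) -
      (πY z : Fin m ⊕ Fin m → F)) y = 0 := by
    intro z y hy
    have : z - (πX z : Fin m ⊕ Fin m → F) - (πY z : Fin m ⊕ Fin m → F) =
        (z - (πY z : Fin m ⊕ Fin m → F)) - (πX z : Fin m ⊕ Fin m → F) := by abel
    rw [this, sympForm_sub_left, hπY z y hy, hXY _ (πX z).2 y hy]
    simp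
  have hisom : ∀ u v, sympForm m F (g₀ u) (g₀ v) = sympForm m F u v := by
    intro u v
    rw [hg₀, hg₀, form_three hXY _ _ _ _ _ _ (hrX u) (hrY u) (hrX v) (hrY v) (φ.symm (πY u)).2
      (φ.symm (πY v)).2 (φ (πX u)).2 (φ (πX v)).2, hφ, hφs]
    have eu : u = (u - (πX u : Fin m ⊕ Fin m → F) - (πY u : Fin m ⊕ Fin m → F)) +
        (πX u : Fin m ⊕ Fin m → F) + (πY u : Fin m ⊕ Fin m → F) := by abel
    have ev : v = (v - (πX v : Fin m ⊕ Fin m → F) - (πY v : Fin m ⊕ Fin m → F)) +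
        (πX v : Fin m ⊕ Fin m → F) + (πY v : Fin m ⊕ Fin m → F) := by abel
    conv_rhs => rw [eu, ev]
    rw [form_three hXY _ _ _ _ _ _ (hrX u) (hrY u) (hrX v) (hrY v) (πX u).2 (πX v).2 (πY u).2
      (πY v).2]
    ring
  have hmv : ∀ z, LinearMap.toMatrix' g₀ *ᵥ z = g₀ z := by
    intro z
    rw [← Matrix.toLin'_apply, Matrix.toLin'_toMatrix']
  have hA : LinearMap.toMatrix' g₀ ∈ symplecticGroup (Fin m) F := by
    rw [mem_symplecticGroup_iff_sympForm]
    intro u v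
    rw [hmv, hmv, hisom]
  refine ⟨(toSpGL m ⟨_, hA⟩ : spGL m F).1, (toSpGL m ⟨_, hA⟩ : spGL m F).2, ?_, ?_, ?_⟩
  · intro x hx
    show LinearMap.toMatrix' g₀ *ᵥ x ∈ Y
    rw [hmv, hg₀]
    have h1 : πX x = ⟨x, hx⟩ := Submodule.projectionOnto_apply_of_mem_left _ hx
    have h2 : πY x = 0 := by
      rw [Submodule.projectionOnto_apply_eq_zero_iff, mem_perp_iff]
      exact fun y hy => hXY x hx y hy
    rw [h1, h2]
    simp
  · intro y hy
    show LinearMap.toMatrix' g₀ *ᵥ y ∈ X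
    rw [hmv, hg₀]
    have h1 : πY y = ⟨y, hy⟩ := Submodule.projectionOnto_apply_of_mem_left _ hy
    have h2 : πX y = 0 := by
      rw [Submodule.projectionOnto_apply_eq_zero_iff, mem_perp_iff]
      intro x hx
      rw [sympForm_swap, hXY x hx y hy, neg_zero]
    rw [h1, h2]
    simp
  · intro z hzX hzY
    show LinearMap.toMatrix' g₀ *ᵥ z = z
    rw [hmv, hg₀]
    have h1 : πX z = 0 := by
      rw [Submodule.projectionOnto_apply_eq_zero_iff, mem_perp_iff]
      exact hzX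
    have h2 : πY z = 0 := by
      rw [Submodule.projectionOnto_apply_eq_zero_iff, mem_perp_iff]
      exact hzY
    rw [h1, h2]
    simp

end Cfsg.Agent.Lib.Helper6
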