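import Mathlib

set_option autoImplicit false

namespace Cfsg.Agent.Lib.Helper6.DLen

open RegularWreathProduct

/-- base embedding -/
def bs (D Q : Type*) [Group D] [Group Q] : (Q → D) →* D ≀ᵣ Q where
  toFun f := ⟨f, 1⟩
  map_one' := rfl
  map_mul' f g := by ext <;> simp

theorem bs_inj (D Q : Type*) [Group D] [Group Q] : Function.Injective (bs D Q) := by
  intro f g h
  exact congrArg RegularWreathProduct.left h

theorem wr_step {D Q : Type*} [Group D] [Group Q] [DecidableEq Q] (g : Q) (hg : g ≠ 1) (j : ℕ) :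
    derivedSeries D j ≤ ((derivedSeries (D ≀ᵣ Q) (j + 1)).comap (bs D Q)).map
      (Pi.evalMonoidHom (fun _ : Q => D) 1) := by
  induction j with
  | zero =>
    intro d _
    refine ⟨Pi.mulSingle 1 d * Pi.mulSingle g d⁻¹, ?_, ?_⟩
    · rw [SetLike.mem_coe, Subgroup.mem_comap, derivedSeries_succ, derivedSeries_zero]
      have : bs D Q (Pi.mulSingle 1 d * Pi.mulSingle g d⁻¹)
          = bs D Q (Pi.mulSingle 1 d) * (inl g : D ≀ᵣ Q) * (bs D Q (Pi.mulSingle 1 d))⁻¹
            * (inl g : D ≀ᵣ Q)⁻¹ := by
        ext x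
        · simp only [bs, MonoidHom.coe_mk, OneHom.coe_mk, mul_left, inv_left, mul_right,
            left_inl, right_inl, inv_right, Pi.mul_apply, Pi.inv_apply, Pi.one_apply,
            Pi.mulSingle_apply]
          by_cases hx : x = g
          · subst hx; simp
          · have : ¬ (x⁻¹ * g = 1) := by
              intro h; apply hx; exact (inv_mul_eq_one.mp h)
            have h2 : ¬ (g⁻¹ * x = 1) := by
              intro h; apply hx; exact (inv_mul_eq_one.mp h).symm
            simp [hx, h2]
        · simp [bs]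
      rw [this]
      exact Subgroup.commutator_mem_commutator (Subgroup.mem_top _) (Subgroup.mem_top _)
    · simp [Pi.mulSingle_apply, hg.symm]
  | succ j ih =>
    rw [derivedSeries_succ]
    refine (Subgroup.commutator_mono ih ih).trans ?_
    rw [← Subgroup.map_commutator]
    apply Subgroup.map_mono
    rw [← Subgroup.map_le_iff_le_comap, Subgroup.map_commutator, derivedSeries_succ (D ≀ᵣ Q) (j + 1)]
    exact Subgroup.commutator_mono (Subgroup.map_comap_le _ _) (Subgroup.map_comap_le _ _)

theorem wr_ne_bot {D Q : Type*} [Group D] [Group Q] (g : Q) (hg : g ≠ 1) (j : ℕ)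
    (h : derivedSeries D j ≠ ⊥) : derivedSeries (D ≀ᵣ Q) (j + 1) ≠ ⊥ := by
  classical
  intro hb
  apply h
  rw [eq_bot_iff]
  refine (wr_step g hg j).trans ?_
  rw [hb]
  rintro _ ⟨f, hf, rfl⟩
  rw [SetLike.mem_coe, Subgroup.mem_comap, Subgroup.mem_bot] at hf
  have : f = 1 := bs_inj D Q (by rw [hf, map_one])
  rw [this]
  exact one_mem _

/-- iterated wreath products acting faithfully on `p^(k+1)` points, of derived length `> k`. -/
theorem exists_wr (p : ℕ) [hp : Fact p.Prime] (k : ℕ) :
    ∃ (W : Type) (_ : Group W) (Λ : Type) (_ : MulAction W Λ), FaithfulSMul W Λ ∧ Finite W ∧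
      Nat.card Λ = p ^ (k + 1) ∧ IsPGroup p W ∧ derivedSeries W k ≠ ⊥ := by
  have : NeZero p := ⟨hp.out.ne_zero⟩
  have hc : Nat.card (Multiplicative (ZMod p)) = p := Nat.card_zmod p
  have hnt : Nontrivial (Multiplicative (ZMod p)) := by
    apply (Finite.one_lt_card_iff_nontrivial).mp
    rw [hc]; exact hp.out.one_lt
  obtain ⟨g, hg⟩ := exists_ne (1 : Multiplicative (ZMod p))
  induction k with
  | zero =>
    refine ⟨Multiplicative (ZMod p), inferInstance, Multiplicative (ZMod p), inferInstance,
      inferInstance, inferInstance, by simpa using hc, IsPGroup.of_card (n := 1) (by simpa using hc),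
      ?_⟩
    rw [derivedSeries_zero]
    exact top_ne_bot
  | succ k ih =>
    obtain ⟨W, _, Λ, _, hfa, hfin, hΛ, hW, hd⟩ := ih
    have hne : Nonempty Λ := by
      have : 0 < Nat.card Λ := by rw [hΛ]; exact pow_pos hp.out.pos _
      exact (Nat.card_pos_iff.mp this).1
    obtain ⟨a, ha⟩ := IsPGroup.iff_card.mp hW
    refine ⟨W ≀ᵣ Multiplicative (ZMod p), inferInstance, Λ × Multiplicative (ZMod p),
      inferInstance, inferInstance, inferInstance, ?_, ?_, wr_ne_bot g hg k hd⟩
    · rw [Nat.card_prod, hΛ, hc, ← pow_succ]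
    · apply IsPGroup.of_card (n := a * p + 1)
      rw [RegularWreathProduct.card, ha, hc, ← pow_mul, ← pow_succ]

end Cfsg.Agent.Lib.Helper6.DLen
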