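import Mathlib
import Cfsg.Agent.Lib.Helper6.EPow
import Cfsg.Agent.Lib.Helper6.EPowSLb

set_option autoImplicit false

namespace Cfsg.Agent.Lib.Helper6.DLen

open Cfsg.Agent.Lib.Helper6.EPow Cfsg.Agent.Lib.Helper6.EPowSL2

theorem ds_equiv {A B : Type*} [Group A] [Group B] (e : A ≃* B) (j : ℕ)
    (h : derivedSeries A j = ⊥) : derivedSeries B j = ⊥ := by
  rw [← map_derivedSeries_eq (f := e.toMonoidHom) e.surjective, h, Subgroup.map_bot]

theorem ds_surj {A B : Type*} [Group A] [Group B] (f : A →* B) (hf : Function.Surjective f)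
    (j : ℕ) (h : derivedSeries A j = ⊥) : derivedSeries B j = ⊥ := by
  rw [← map_derivedSeries_eq hf, h, Subgroup.map_bot]

theorem ds_sup {G : Type*} [Group G] (Q T : Subgroup G)
    (hN : ∀ t ∈ T, ∀ q ∈ Q, t * q * t⁻¹ ∈ Q) (hQ : ∀ a ∈ Q, ∀ b ∈ Q, a * b = b * a) (j : ℕ)
    (hT : derivedSeries ↥T j = ⊥) : derivedSeries ↥(T ⊔ Q : Subgroup G) (j + 1) = ⊥ := by
  have hTn : T ≤ Subgroup.normalizer (Q : Set G) := Subgroup.le_normalizer_iff.mpr hN
  have hRn : T ⊔ Q ≤ Subgroup.normalizer (Q : Set G) := sup_le hTn Subgroup.le_normalizer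
  have hnorm : (Q.subgroupOf (T ⊔ Q)).Normal :=
    (Subgroup.normal_subgroupOf_iff_le_normalizer le_sup_right).mpr hRn
  let f : ↥T →* ↥(T ⊔ Q : Subgroup G) ⧸ (Q.subgroupOf (T ⊔ Q)) :=
    (QuotientGroup.mk' (Q.subgroupOf (T ⊔ Q))).comp (Subgroup.inclusion le_sup_left)
  have hf : Function.Surjective f := by
    rw [← MonoidHom.range_eq_top, MonoidHom.range_comp, Subgroup.inclusion_range]
    have h1 : (T.subgroupOf (T ⊔ Q)).map (QuotientGroup.mk' (Q.subgroupOf (T ⊔ Q)))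
        = (T.subgroupOf (T ⊔ Q) ⊔ Q.subgroupOf (T ⊔ Q)).map
          (QuotientGroup.mk' (Q.subgroupOf (T ⊔ Q))) := by
      rw [Subgroup.map_sup, QuotientGroup.map_mk'_self, sup_bot_eq]
    rw [h1, ← Subgroup.subgroupOf_sup le_sup_left le_sup_right, Subgroup.subgroupOf_self]
    exact Subgroup.map_top_of_surjective _ (QuotientGroup.mk'_surjective _)
  have h1 : derivedSeries (↥(T ⊔ Q : Subgroup G) ⧸ (Q.subgroupOf (T ⊔ Q))) j = ⊥ :=
    ds_surj f hf j hT
  have h2 : derivedSeries ↥(T ⊔ Q : Subgroup G) j ≤ Q.subgroupOf (T ⊔ Q) := by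
    have := map_derivedSeries_le_derivedSeries (QuotientGroup.mk' (Q.subgroupOf (T ⊔ Q))) j
    rw [h1, le_bot_iff, Subgroup.map_eq_bot_iff, QuotientGroup.ker_mk'] at this
    exact this
  rw [derivedSeries_succ, eq_bot_iff]
  refine (Subgroup.commutator_mono h2 h2).trans ?_
  rw [Subgroup.commutator_le]
  intro a ha b hb
  rw [Subgroup.mem_bot, commutatorElement_eq_one_iff_mul_comm]
  exact Subtype.ext (hQ a.1 ha b.1 hb)

theorem upper (p : ℕ) [hp : Fact p.Prime] : ∀ (n : ℕ) (α : Type) [Fintype α] [DecidableEq α],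
    Fintype.card α = n → ∀ P : Sylow p (Equiv.Perm α),
      derivedSeries ↥(P : Subgroup (Equiv.Perm α)) (Nat.log p n) = ⊥ := by
  intro n
  induction n using Nat.strong_induction_on with
  | _ n ih =>
    intro α _ _ hα P
    have hp0 : p ≠ 0 := hp.out.ne_zero
    have : NeZero p := ⟨hp0⟩
    obtain ⟨m, s, hs, hn⟩ : ∃ m s, s < p ∧ n = p * m + s :=
      ⟨n / p, n % p, Nat.mod_lt _ hp.out.pos, (Nat.div_add_mod n p).symm⟩
    have hcardG : Nat.card (Equiv.Perm α) = n.factorial := by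
      rw [Nat.card_eq_fintype_card, Fintype.card_perm, hα]
    by_cases hm : m = 0
    · have h1 : Nat.card ↥(P : Subgroup (Equiv.Perm α)) = 1 := by
        rw [Sylow.card_eq_multiplicity, hcardG,
          Nat.factorization_factorial_eq_zero_of_lt (by rw [hn, hm]; simpa using hs), pow_zero]
      have h2 : Subsingleton ↥(P : Subgroup (Equiv.Perm α)) :=
        (Nat.card_eq_one_iff_unique.mp h1).1
      exact Subsingleton.elim _ _
    have hmn : m < n := by
      have h2 := hp.out.two_le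
      have : 2 * m ≤ p * m := Nat.mul_le_mul_right m h2
      omega
    have hlog : Nat.log p n = Nat.log p m + 1 := by
      have hpn : p ≤ n := by
        have : p * 1 ≤ p * m := Nat.mul_le_mul_left p (by omega)
        omega
      rw [Nat.log_of_one_lt_of_le hp.out.one_lt hpn]
      congr 2
      rw [hn, Nat.mul_add_div hp.out.pos, Nat.div_eq_of_lt hs, add_zero]
    obtain ⟨Pm⟩ : Nonempty (Sylow p (Equiv.Perm (Fin m))) := inferInstance
    have hPm := ih m hmn (Fin m) (Fintype.card_fin m) Pm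
    let e : (Fin m × ZMod p) ⊕ Fin s ≃ α := Fintype.equivOfCardEq (by
      rw [Fintype.card_sum, Fintype.card_prod, Fintype.card_fin, Fintype.card_fin, ZMod.card, hα, hn,
        mul_comm])
    let Fb := (Phi e).comp (base₀ m p)
    let Ft := (Phi e).comp (top₀ m p)
    have hFb : Function.Injective Fb := (Phi_inj e).comp (base₀_inj m p)
    have hFt : Function.Injective Ft := (Phi_inj e).comp (top₀_inj m p)
    have hQexp : ∀ q ∈ ((⊤ : Subgroup _).map Fb), q ^ p = 1 := by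
      rintro _ ⟨v, _, rfl⟩
      rw [← map_pow, X_pow p m hp0, map_one]
    have hT2 : IsPGroup p ((Pm : Subgroup (Equiv.Perm (Fin m))).map Ft) :=
      IsPGroup.map Pm.isPGroup' Ft
    have hN : ∀ t ∈ (Pm : Subgroup (Equiv.Perm (Fin m))).map Ft,
        ∀ q ∈ ((⊤ : Subgroup _).map Fb), t * q * t⁻¹ ∈ ((⊤ : Subgroup _).map Fb) := by
      rintro _ ⟨σ, _, rfl⟩ _ ⟨v, _, rfl⟩
      refine ⟨fun i => v (σ⁻¹ i), Subgroup.mem_top _, ?_⟩
      show Phi e (base₀ m p _) = Phi e (top₀ m p σ) * Phi e (base₀ m p v) * (Phi e (top₀ m p σ))⁻¹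
      rw [← map_inv, ← map_mul, ← map_mul, top_base]
    have hD : ∀ x, x ∈ ((⊤ : Subgroup _).map Fb) →
        x ∈ (Pm : Subgroup (Equiv.Perm (Fin m))).map Ft → x = 1 := by
      rintro _ ⟨v, _, rfl⟩ ⟨σ, _, h⟩
      have h1 := base_eq_top m p σ v (Phi_inj e h).symm
      rw [h1, map_one]
    obtain ⟨hRp, hRc⟩ := sup_facts _ _ (isPGroup_of_exp hQexp) hT2 hN hD
    obtain ⟨S₀, hS₀⟩ := hRp.exists_le_sylow
    have hEq : ((Pm : Subgroup (Equiv.Perm (Fin m))).map Ft ⊔ (⊤ : Subgroup _).map Fb) = S₀ := by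
      apply Subgroup.eq_of_le_of_card_ge hS₀
      refine le_trans (le_of_eq ?_) hRc
      rw [Subgroup.card_map_of_injective hFb, Subgroup.card_map_of_injective hFt,
        Subgroup.card_top, card_X p m hp0,
        Sylow.card_eq_multiplicity, Sylow.card_eq_multiplicity, hcardG, hn,
        fac_factorial p m s hs, pow_add,
        Nat.card_eq_fintype_card, Fintype.card_perm, Fintype.card_fin]
    have hTd : derivedSeries ↥((Pm : Subgroup (Equiv.Perm (Fin m))).map Ft) (Nat.log p m) = ⊥ :=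
      ds_surj (Ft.subgroupMap _) (Ft.subgroupMap_surjective _) _ hPm
    have hcomm : ∀ a ∈ ((⊤ : Subgroup _).map Fb), ∀ b ∈ ((⊤ : Subgroup _).map Fb),
        a * b = b * a := by
      rintro _ ⟨v, _, rfl⟩ _ ⟨w, _, rfl⟩
      rw [← map_mul, ← map_mul, mul_comm]
    have h3 := ds_sup _ _ hN hcomm _ hTd
    rw [hlog]
    exact ds_equiv ((MulEquiv.subgroupCongr hEq).trans (Sylow.equiv S₀ P)) _ h3

end Cfsg.Agent.Lib.Helper6.DLen
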