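import Mathlib
import Cfsg.Agent.Lib.Helper6.DLenA
import Cfsg.Agent.Lib.Helper6.EPowSp
import Cfsg.Agent.Lib.Helper12.SympRep

set_option autoImplicit false

namespace Cfsg.Agent.Lib.Helper6.DLen

open RegularWreathProduct

universe u

variable {F : Type u} [Field F]

section forms

variable {V : Type*} [AddCommGroup V] [Module F V]

/-- pi form -/
def piForm (X : Type*) [Fintype X] (B : LinearMap.BilinForm F V) :
    LinearMap.BilinForm F (X → V) :=
  ∑ x, B.comp (LinearMap.proj x) (LinearMap.proj x)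

theorem piForm_apply (X : Type*) [Fintype X] (B : LinearMap.BilinForm F V) (v w : X → V) :
    piForm X B v w = ∑ x, B (v x) (w x) := by
  simp [piForm, LinearMap.sum_apply]

theorem piForm_alt (X : Type*) [Fintype X] (B : LinearMap.BilinForm F V) (hA : B.IsAlt) :
    (piForm X B).IsAlt := by
  intro v
  rw [piForm_apply]
  exact Finset.sum_eq_zero (fun x _ => hA (v x))

theorem piForm_nondeg (X : Type*) [Fintype X] [DecidableEq X] (B : LinearMap.BilinForm F V)
    (hA : B.IsAlt) (hN : B.Nondegenerate) : (piForm X B).Nondegenerate := by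
  have hL : ∀ x, (∀ y, piForm X B x y = 0) → x = 0 := by
    intro x hx
    funext i
    apply hN.1
    intro u
    have := hx (Pi.single i u)
    rw [piForm_apply, Finset.sum_eq_single i] at this
    · simpa using this
    · intro j _ hj
      simp [Pi.single_eq_of_ne hj]
    · intro h; exact absurd (Finset.mem_univ i) h
  refine ⟨hL, fun y hy => hL y fun x => ?_⟩
  rw [← LinearMap.IsAlt.neg (piForm_alt X B hA), hy, neg_zero]

variable {V₂ : Type*} [AddCommGroup V₂] [Module F V₂]

/-- product form -/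
def prodForm (B : LinearMap.BilinForm F V) (B₂ : LinearMap.BilinForm F V₂) :
    LinearMap.BilinForm F (V × V₂) :=
  B.comp (LinearMap.fst F V V₂) (LinearMap.fst F V V₂)
    + B₂.comp (LinearMap.snd F V V₂) (LinearMap.snd F V V₂)

theorem prodForm_apply (B : LinearMap.BilinForm F V) (B₂ : LinearMap.BilinForm F V₂)
    (v w : V × V₂) : prodForm B B₂ v w = B v.1 w.1 + B₂ v.2 w.2 := by
  simp [prodForm]

theorem prodForm_alt (B : LinearMap.BilinForm F V) (B₂ : LinearMap.BilinForm F V₂)
    (hA : B.IsAlt) (hA₂ : B₂.IsAlt) : (prodForm B B₂).IsAlt := by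
  intro v
  rw [prodForm_apply, hA, hA₂, add_zero]

theorem prodForm_nondeg (B : LinearMap.BilinForm F V) (B₂ : LinearMap.BilinForm F V₂)
    (hA : B.IsAlt) (hA₂ : B₂.IsAlt) (hN : B.Nondegenerate) (hN₂ : B₂.Nondegenerate) :
    (prodForm B B₂).Nondegenerate := by
  have hL : ∀ x, (∀ y, prodForm B B₂ x y = 0) → x = 0 := by
    intro x hx
    refine Prod.ext ?_ ?_
    · apply hN.1
      intro u
      have := hx (u, 0)
      rw [prodForm_apply] at this
      simpa using this
    · apply hN₂.1
      intro u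
      have := hx (0, u)
      rw [prodForm_apply] at this
      simpa using this
  refine ⟨hL, fun y hy => hL y fun x => ?_⟩
  rw [← LinearMap.IsAlt.neg (prodForm_alt B B₂ hA hA₂), hy, neg_zero]

/-- wreath representation -/
def wrRep {D Q : Type*} [Group D] [Group Q] (ρ : D →* Module.End F V) :
    D ≀ᵣ Q →* Module.End F (Q → V) where
  toFun w := LinearMap.pi (fun x => (ρ (w.left x)) ∘ₗ LinearMap.proj (w.right⁻¹ * x))
  map_one' := by
    apply LinearMap.ext; intro v; funext x
    simp
  map_mul' a b := by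
    apply LinearMap.ext; intro v; funext x
    simp [mul_assoc]

theorem wrRep_apply {D Q : Type*} [Group D] [Group Q] (ρ : D →* Module.End F V) (w : D ≀ᵣ Q)
    (v : Q → V) (x : Q) : wrRep ρ w v x = ρ (w.left x) (v (w.right⁻¹ * x)) := rfl

theorem wrRep_inj {D Q : Type*} [Group D] [Group Q] [DecidableEq Q] [Nontrivial V]
    (ρ : D →* Module.End F V) (hρ : Function.Injective ρ) :
    Function.Injective (wrRep ρ : D ≀ᵣ Q →* Module.End F (Q → V)) := by
  rw [injective_iff_map_eq_one]
  intro w hw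
  have h : ∀ (v : Q → V) (x : Q), ρ (w.left x) (v (w.right⁻¹ * x)) = v x := by
    intro v x
    have := congrFun (LinearMap.congr_fun hw v) x
    rw [wrRep_apply] at this
    exact this
  have hq : w.right = 1 := by
    by_contra hq
    obtain ⟨u, hu⟩ := exists_ne (0 : V)
    have := h (Pi.single 1 u) 1
    rw [mul_one, Pi.single_eq_of_ne (inv_ne_one.mpr hq), map_zero, Pi.single_eq_same] at this
    exact hu this.symm
  apply RegularWreathProduct.ext
  · funext x
    apply hρ
    show ρ (w.left x) = ρ 1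
    rw [map_one]
    apply LinearMap.ext
    intro u
    exact h (fun _ => u) x
  · exact hq

theorem wrRep_pres {D Q : Type*} [Group D] [Group Q] [Fintype Q]
    (ρ : D →* Module.End F V) (B : LinearMap.BilinForm F V)
    (hB : ∀ g x y, B (ρ g x) (ρ g y) = B x y) (w : D ≀ᵣ Q) (v v' : Q → V) :
    piForm Q B (wrRep ρ w v) (wrRep ρ w v') = piForm Q B v v' := by
  rw [piForm_apply, piForm_apply]
  simp only [wrRep_apply, hB]
  exact Equiv.sum_comp (Equiv.mulLeft w.right⁻¹) (fun y => B (v y) (v' y))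

end forms

/-- the standard alternating form on `F²` -/
def B₀ : LinearMap.BilinForm F (Fin 2 → F) :=
  LinearMap.mk₂ F (fun v w => v 0 * w 1 - v 1 * w 0)
    (by intro x x' y; simp only [Pi.add_apply]; ring)
    (by intro t x y; simp only [Pi.smul_apply, smul_eq_mul]; ring)
    (by intro x y y'; simp only [Pi.add_apply]; ring)
    (by intro t x y; simp only [Pi.smul_apply, smul_eq_mul]; ring)

theorem B₀_apply (v w : Fin 2 → F) : B₀ v w = v 0 * w 1 - v 1 * w 0 := rfl

theorem B₀_alt : (B₀ : LinearMap.BilinForm F (Fin 2 → F)).IsAlt := by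
  intro v; rw [B₀_apply]; ring

theorem B₀_nondeg : (B₀ : LinearMap.BilinForm F (Fin 2 → F)).Nondegenerate := by
  have hL : ∀ x, (∀ y, (B₀ : LinearMap.BilinForm F (Fin 2 → F)) x y = 0) → x = 0 := by
    intro x hx
    funext i
    have h0 := hx ![0, 1]
    have h1 := hx ![1, 0]
    rw [B₀_apply] at h0 h1
    fin_cases i
    · simpa using h0
    · simpa using h1
  refine ⟨hL, fun y hy => hL y fun x => ?_⟩
  rw [← LinearMap.IsAlt.neg (B₀_alt (F := F)) , hy, neg_zero]

/-- natural rep of `SL₂` -/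
def ρ₀ : Matrix.SpecialLinearGroup (Fin 2) F →* Module.End F (Fin 2 → F) where
  toFun s := Matrix.toLin' s.1
  map_one' := by
    show Matrix.toLin' (1 : Matrix (Fin 2) (Fin 2) F) = 1
    rw [Matrix.toLin'_one]; rfl
  map_mul' a b := by
    show Matrix.toLin' (a.1 * b.1) = _
    rw [Matrix.toLin'_mul]; rfl

theorem ρ₀_inj : Function.Injective (ρ₀ : Matrix.SpecialLinearGroup (Fin 2) F →* _) := by
  intro a b h
  exact Subtype.ext (Matrix.toLin'.injective h)

theorem ρ₀_pres (g : Matrix.SpecialLinearGroup (Fin 2) F) (x y : Fin 2 → F) :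
    B₀ (ρ₀ g x) (ρ₀ g y) = B₀ x y := by
  have hdet := g.2
  rw [Matrix.det_fin_two] at hdet
  show B₀ (Matrix.toLin' g.1 x) (Matrix.toLin' g.1 y) = _
  rw [B₀_apply, B₀_apply]
  simp only [Matrix.toLin'_apply, Matrix.mulVec, dotProduct, Fin.sum_univ_two]
  linear_combination (x 0 * y 1 - x 1 * y 0) * hdet

theorem g_ne : (Multiplicative.ofAdd (1 : ZMod 2)) ≠ (1 : Multiplicative (ZMod 2)) := by decide

open Cfsg.Agent.Lib.Helper6.EPowSp in
theorem exists_rep [Fintype F] (hF : Odd (Fintype.card F)) (i : ℕ) :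
    ∃ (D : Type u) (_ : Group D) (V : Type u) (_ : AddCommGroup V) (_ : Module F V)
      (_ : FiniteDimensional F V) (B : LinearMap.BilinForm F V) (ρ : D →* Module.End F V),
      B.IsAlt ∧ B.Nondegenerate ∧ Module.finrank F V = 2 * 2 ^ i ∧ Function.Injective ρ ∧
      (∀ g x y, B (ρ g x) (ρ g y) = B x y) ∧ Finite D ∧ IsPGroup 2 D ∧
      derivedSeries D (i + 1) ≠ ⊥ := by
  classical
  have : Fact (Nat.Prime 2) := ⟨Nat.prime_two⟩
  have hc : Nat.card (Multiplicative (ZMod 2)) = 2 := Nat.card_zmod 2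
  have hg := g_ne
  induction i with
  | zero =>
    obtain ⟨T, hT, x, hx, y, hy, hxy⟩ := sl2_nonabelian hF
    refine ⟨↥T, inferInstance, Fin 2 → F, inferInstance, inferInstance, inferInstance, B₀,
      ρ₀.comp T.subtype, B₀_alt, B₀_nondeg, by simp, ρ₀_inj.comp Subtype.val_injective,
      fun g x y => ρ₀_pres g.1 x y, inferInstance, hT, ?_⟩
    intro hb
    apply hxy
    have h1 : (⟨x, hx⟩ : ↥T) * ⟨y, hy⟩ * (⟨x, hx⟩ : ↥T)⁻¹ * (⟨y, hy⟩ : ↥T)⁻¹
        ∈ derivedSeries ↥T (0 + 1) := by
      rw [derivedSeries_succ, derivedSeries_zero]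
      exact Subgroup.commutator_mem_commutator (Subgroup.mem_top _) (Subgroup.mem_top _)
    rw [hb, Subgroup.mem_bot, mul_inv_eq_one, mul_inv_eq_iff_eq_mul] at h1
    exact congrArg Subtype.val h1
  | succ i ih =>
    obtain ⟨D, _, V, _, _, _, B, ρ, hA, hN, hd, hρ, hB, hfin, hp, hds⟩ := ih
    have hnt : Nontrivial V := by
      apply Module.nontrivial_of_finrank_pos (R := F)
      rw [hd]; positivity
    obtain ⟨a, ha⟩ := IsPGroup.iff_card.mp hp
    refine ⟨D ≀ᵣ Multiplicative (ZMod 2), inferInstance, Multiplicative (ZMod 2) → V,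
      inferInstance, inferInstance, inferInstance, piForm _ B, wrRep ρ, piForm_alt _ B hA,
      piForm_nondeg _ B hA hN, ?_, wrRep_inj ρ hρ, wrRep_pres ρ B hB, inferInstance, ?_,
      wr_ne_bot _ hg (i + 1) hds⟩
    · rw [Module.finrank_pi_fintype, Finset.sum_const, hd, Finset.card_univ,
        ← Nat.card_eq_fintype_card, hc, smul_eq_mul, pow_succ]
      ring
    · apply IsPGroup.of_card (n := a * 2 + 1)
      rw [RegularWreathProduct.card, ha, hc, ← pow_mul, ← pow_succ]

/-- a `2`-group of derived length `> i + 1` inside `Sp_{2n}(F)` when `2 ^ i ≤ n`. -/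
theorem exists_sub_Sp [Fintype F] (hF : Odd (Fintype.card F)) (i n : ℕ) (hn : 2 ^ i ≤ n) :
    ∃ (D : Type u) (_ : Group D) (f : D →* Matrix.symplecticGroup (Fin n) F),
      Function.Injective f ∧ IsPGroup 2 D ∧ derivedSeries D (i + 1) ≠ ⊥ := by
  classical
  obtain ⟨D, _, V, _, _, _, B, ρ, hA, hN, hd, hρ, hB, hfin, hp, hds⟩ := exists_rep hF i
  let ρ' : D →* Module.End F (V × (Fin (n - 2 ^ i) → Fin 2 → F)) :=
    { toFun := fun d => LinearMap.prodMap (ρ d) LinearMap.id
      map_one' := by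
        apply LinearMap.ext; rintro ⟨v, w⟩; simp
      map_mul' := fun a b => by
        apply LinearMap.ext; rintro ⟨v, w⟩; simp }
  have hρ' : Function.Injective ρ' := by
    intro a b h
    apply hρ
    apply LinearMap.ext
    intro v
    exact congrArg Prod.fst (LinearMap.congr_fun h (v, 0))
  obtain ⟨f, hf⟩ := Cfsg.Agent.Lib.Helper12.exists_hom_symp_of_rep
    (prodForm B (piForm (Fin (n - 2 ^ i)) (B₀ : LinearMap.BilinForm F (Fin 2 → F))))
    (prodForm_alt _ _ hA (piForm_alt _ _ B₀_alt))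
    (prodForm_nondeg _ _ hA (piForm_alt _ _ B₀_alt) hN (piForm_nondeg _ _ B₀_alt B₀_nondeg))
    (k := n) (by
      rw [Module.finrank_prod, hd, Module.finrank_pi_fintype]
      simp
      omega) ρ' hρ' (by
      intro g x y
      rw [prodForm_apply, prodForm_apply]
      show B (ρ g x.1) (ρ g y.1) + _ = _
      rw [hB]
      rfl)
  exact ⟨D, inferInstance, f, hf, hp, hds⟩

end Cfsg.Agent.Lib.Helper6.DLen
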