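import Mathlib
import Cfsg.Agent.Lib.Helper6.DLenB
import Cfsg.Agent.Lib.Helper6.EPowSp

set_option autoImplicit false

namespace Cfsg.Agent.Lib.Helper6.DLen

open Cfsg.Agent.Lib.Helper6.EPow Cfsg.Agent.Lib.Helper6.EPowSL2 Cfsg.Agent.Lib.Helper6.EPowSp

theorem ds_le_map {G : Type*} [Group G] (H : Subgroup G) (j : ℕ) (h : derivedSeries G j ≤ H)
    (i : ℕ) : derivedSeries G (j + i) ≤ (derivedSeries ↥H i).map H.subtype := by
  induction i with
  | zero =>
    rw [derivedSeries_zero, ← MonoidHom.range_eq_map, Subgroup.range_subtype]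
    exact h
  | succ i ih =>
    rw [← add_assoc, derivedSeries_succ, derivedSeries_succ, Subgroup.map_commutator]
    exact Subgroup.commutator_mono ih ih

theorem ds_sup' {G : Type*} [Group G] (Q T : Subgroup G)
    (hN : ∀ t ∈ T, ∀ q ∈ Q, t * q * t⁻¹ ∈ Q) (j i : ℕ)
    (hT : derivedSeries ↥T j = ⊥) (hQ : derivedSeries ↥Q i = ⊥) :
    derivedSeries ↥(T ⊔ Q : Subgroup G) (j + i) = ⊥ := by
  have hTn : T ≤ Subgroup.normalizer (Q : Set G) := Subgroup.le_normalizer_iff.mpr hN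
  have hRn : T ⊔ Q ≤ Subgroup.normalizer (Q : Set G) := sup_le hTn Subgroup.le_normalizer
  have hnorm : (Q.subgroupOf (T ⊔ Q)).Normal :=
    (Subgroup.normal_subgroupOf_iff_le_normalizer le_sup_right).mpr hRn
  let f : ↥T →* ↥(T ⊔ Q : Subgroup G) ⧸ (Q.subgroupOf (T ⊔ Q)) :=
    (QuotientGroup.mk' (Q.subgroupOf (T ⊔ Q))).comp (Subgroup.inclusion le_sup_left)
  have hf : Function.Surjective f := by
    rw [← MonoidHom.range_eq_top, MonoidHom.range_comp, Subgroup.inclusion_range]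
    have h1 : (T.subgroupOf (T ⊔ Q)).map (QuotientGroup.mk' (Q.subgroupOf (T ⊔ Q)))
        = (T.subgroupOf (T ⊔ Q) ⊔ Q.subgroupOf (T ⊔ Q)).map
          (QuotientGroup.mk' (Q.subgroupOf (T ⊔ Q))) := by
      rw [Subgroup.map_sup, QuotientGroup.map_mk'_self, sup_bot_eq]
    rw [h1, ← Subgroup.subgroupOf_sup le_sup_left le_sup_right, Subgroup.subgroupOf_self]
    exact Subgroup.map_top_of_surjective _ (QuotientGroup.mk'_surjective _)
  have h1 : derivedSeries (↥(T ⊔ Q : Subgroup G) ⧸ (Q.subgroupOf (T ⊔ Q))) j = ⊥ :=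
    ds_surj f hf j hT
  have h2 : derivedSeries ↥(T ⊔ Q : Subgroup G) j ≤ Q.subgroupOf (T ⊔ Q) := by
    have := map_derivedSeries_le_derivedSeries (QuotientGroup.mk' (Q.subgroupOf (T ⊔ Q))) j
    rw [h1, le_bot_iff, Subgroup.map_eq_bot_iff, QuotientGroup.ker_mk'] at this
    exact this
  have h3 : derivedSeries ↥(Q.subgroupOf (T ⊔ Q)) i = ⊥ :=
    ds_equiv (Subgroup.subgroupOfEquivOfLe (le_sup_right : Q ≤ T ⊔ Q)).symm i hQ
  have h4 := ds_le_map _ j h2 i
  rw [h3, Subgroup.map_bot, le_bot_iff] at h4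
  exact h4

theorem ds_pi {ι G : Type*} [Group G] (i : ℕ) (h : derivedSeries G i = ⊥) :
    derivedSeries (ι → G) i = ⊥ := by
  rw [eq_bot_iff]
  intro f hf
  rw [Subgroup.mem_bot]
  funext x
  have := map_derivedSeries_le_derivedSeries (Pi.evalMonoidHom (fun _ : ι => G) x) i
    (Subgroup.mem_map_of_mem _ hf)
  rw [h, Subgroup.mem_bot] at this
  exact this

theorem ds2_of_hom {G A : Type*} [Group G] [CommGroup A] (χ : G →* A)
    (hker : ∀ a ∈ χ.ker, ∀ b ∈ χ.ker, a * b = b * a) : derivedSeries G 2 = ⊥ := by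
  have h1 : derivedSeries G 1 ≤ χ.ker := by
    rw [derivedSeries_one]
    exact Abelianization.commutator_subset_ker χ
  rw [derivedSeries_succ, eq_bot_iff]
  refine (Subgroup.commutator_mono h1 h1).trans ?_
  rw [Subgroup.commutator_le]
  intro a ha b hb
  rw [Subgroup.mem_bot, commutatorElement_eq_one_iff_mul_comm]
  exact hker a ha b hb

/-- the sign character of a quaternion group -/
def χq (m : ℕ) : QuaternionGroup m →* Multiplicative (ZMod 2) where
  toFun x := match x with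
    | .a _ => 1
    | .xa _ => Multiplicative.ofAdd 1
  map_one' := rfl
  map_mul' x y := by
    rcases x with i | i <;> rcases y with j | j
    · rfl
    · rfl
    · rfl
    · show (1 : Multiplicative (ZMod 2)) = Multiplicative.ofAdd 1 * Multiplicative.ofAdd 1
      decide

theorem ds_quaternion (m : ℕ) : derivedSeries (QuaternionGroup m) 2 = ⊥ := by
  apply ds2_of_hom (χq m)
  rintro (i | i) hi (j | j) hj
  · rw [QuaternionGroup.a_mul_a, QuaternionGroup.a_mul_a, add_comm]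
  · exact absurd (MonoidHom.mem_ker.mp hj) (by show Multiplicative.ofAdd (1 : ZMod 2) ≠ 1; decide)
  · exact absurd (MonoidHom.mem_ker.mp hi) (by show Multiplicative.ofAdd (1 : ZMod 2) ≠ 1; decide)
  · exact absurd (MonoidHom.mem_ker.mp hi) (by show Multiplicative.ofAdd (1 : ZMod 2) ≠ 1; decide)

open Matrix in
theorem ds_sl2 {F : Type*} [Field F] [Fintype F] (hF : Odd (Fintype.card F))
    (S : Sylow 2 (SpecialLinearGroup (Fin 2) F)) :
    derivedSeries ↥(S : Subgroup (SpecialLinearGroup (Fin 2) F)) 2 = ⊥ := by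
  classical
  have h2 : (2 : F) ≠ 0 := by
    apply Ring.two_ne_zero
    intro h
    rw [FiniteField.even_card_iff_char_two] at h
    obtain ⟨k, hk⟩ := hF
    omega
  have : Fact (Nat.Prime 2) := ⟨Nat.prime_two⟩
  by_cases hne : ∃ w : ↥(S : Subgroup (SpecialLinearGroup (Fin 2) F)), w ≠ 1
  swap
  · push Not at hne
    rw [eq_bot_iff]
    intro x _
    rw [Subgroup.mem_bot]; exact hne x
  have hdvd : 2 ∣ Nat.card ↥(S : Subgroup (SpecialLinearGroup (Fin 2) F)) := by
    obtain ⟨k, hk⟩ := IsPGroup.iff_card.mp S.isPGroup'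
    rw [hk]
    rcases Nat.eq_zero_or_pos k with rfl | hk0
    · exfalso
      obtain ⟨w, hw⟩ := hne
      rw [pow_zero, Nat.card_eq_one_iff_unique] at hk
      exact hw (hk.1.elim _ _)
    · exact dvd_pow_self 2 hk0.ne'
  obtain ⟨z, hz⟩ := exists_prime_orderOf_dvd_card' 2 hdvd
  have hz1 : z ≠ 1 := by
    intro h; rw [h, orderOf_one] at hz; norm_num at hz
  have hz2 : z ^ 2 = 1 := by
    have := pow_orderOf_eq_one z
    rwa [hz] at this
  have hinv : ∀ w : ↥(S : Subgroup (SpecialLinearGroup (Fin 2) F)), w ^ 2 = 1 → w = 1 ∨ w.1 = -1 := by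
    intro w hw
    have h1 : w.1 * w.1 = 1 := by
      rw [← pow_two]; exact congrArg Subtype.val hw
    rcases sl2_invol h2 w.1 h1 with h | h
    · exact Or.inl (Subtype.ext h)
    · exact Or.inr h
  have hzv : z.1 = -1 := (hinv z hz2).resolve_left hz1
  have hU : Cfsg.Agent.Lib.Helper18.UInv ↥(S : Subgroup (SpecialLinearGroup (Fin 2) F)) z :=
    ⟨fun w => S.isPGroup' w, hz1, hz2, fun w hw => (hinv w hw).imp id
      (fun h => Subtype.ext (h.trans hzv.symm))⟩
  rcases hU.cyclic_or_quaternion with hc | ⟨k, ⟨f⟩⟩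
  · apply ds2_of_hom (1 : ↥(S : Subgroup (SpecialLinearGroup (Fin 2) F)) →* Multiplicative (ZMod 2))
    intro a _ b _
    obtain ⟨g, hg⟩ := hc.exists_generator
    obtain ⟨i, hi⟩ := hg a
    obtain ⟨j, hj⟩ := hg b
    rw [← hi, ← hj]
    show g ^ i * g ^ j = g ^ j * g ^ i
    rw [← _root_.zpow_add, ← _root_.zpow_add, add_comm]
  · exact ds_equiv f.symm 2 (ds_quaternion _)

end Cfsg.Agent.Lib.Helper6.DLen
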