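import Mathlib
import Cfsg.Agent.Lib.Helper6.DLenC
import Cfsg.Agent.Lib.Helper6.SylLarge

set_option autoImplicit false

namespace Cfsg.Agent.Lib.Helper6.DLen

open RegularWreathProduct

universe u

variable {F : Type u} [Field F]

/-- extend by the identity and pass to matrices -/
noncomputable def toGLn {V : Type*} [AddCommGroup V] [Module F V] {V₂ : Type*} [AddCommGroup V₂]
    [Module F V₂] {n : ℕ} (b : Module.Basis (Fin n) F (V × V₂)) :
    (Module.End F V)ˣ →* Matrix.GeneralLinearGroup (Fin n) F :=
  (Units.mapEquiv (LinearMap.toMatrixAlgEquiv b).toMulEquiv).toMonoidHom.comp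
    (Units.map
      { toFun := fun g => LinearMap.prodMap g LinearMap.id
        map_one' := by apply LinearMap.ext; rintro ⟨v, w⟩; simp
        map_mul' := fun a b => by apply LinearMap.ext; rintro ⟨v, w⟩; simp })

theorem toGLn_inj {V : Type*} [AddCommGroup V] [Module F V] {V₂ : Type*} [AddCommGroup V₂]
    [Module F V₂] {n : ℕ} (b : Module.Basis (Fin n) F (V × V₂)) :
    Function.Injective (toGLn b : (Module.End F V)ˣ →* _) := by
  refine (Units.mapEquiv (LinearMap.toMatrixAlgEquiv b).toMulEquiv).injective.comp ?_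
  apply Units.map_injective
  intro a c h
  apply LinearMap.ext
  intro v
  exact congrArg Prod.fst (LinearMap.congr_fun h (v, 0))

theorem exists_rep' [Fintype F] (p : ℕ) [hp : Fact p.Prime] (e : ℕ) (he : 0 < e)
    (hpe : p ∣ Fintype.card F ^ e - 1) (i : ℕ) :
    ∃ (D : Type u) (_ : Group D) (V : Type u) (_ : AddCommGroup V) (_ : Module F V)
      (_ : FiniteDimensional F V) (ρ : D →* Module.End F V),
      Module.finrank F V = e * p ^ i ∧ Function.Injective ρ ∧ Finite D ∧ IsPGroup p D ∧
      derivedSeries D i ≠ ⊥ := by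
  classical
  have : NeZero p := ⟨hp.out.ne_zero⟩
  have hc : Nat.card (Multiplicative (ZMod p)) = p := Nat.card_zmod p
  have hnt : Nontrivial (Multiplicative (ZMod p)) := by
    apply (Finite.one_lt_card_iff_nontrivial).mp
    rw [hc]; exact hp.out.one_lt
  obtain ⟨g, hg⟩ := exists_ne (1 : Multiplicative (ZMod p))
  induction i with
  | zero =>
    obtain ⟨Θ, hΘ⟩ := Cfsg.Agent.Lib.Helper6.SylLarge.exists_embed (F := F) e e 1 p he
      (by omega) hpe
    let ρ : ULift.{u} (Fin 1 → Multiplicative (ZMod p)) →* Module.End F (Fin e → F) :=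
      { toFun := fun d => Matrix.toLin' (Θ d.down).val
        map_one' := by
          show Matrix.toLin' (Θ 1).val = 1
          rw [map_one, Units.val_one, Matrix.toLin'_one]; rfl
        map_mul' := fun a b => by
          show Matrix.toLin' (Θ (a.down * b.down)).val = _
          rw [map_mul, Units.val_mul, Matrix.toLin'_mul]; rfl }
    have hcD : Nat.card (ULift.{u} (Fin 1 → Multiplicative (ZMod p))) = p ^ 1 := by
      rw [Nat.card_ulift, Nat.card_fun, hc]; simp
    refine ⟨ULift.{u} (Fin 1 → Multiplicative (ZMod p)), inferInstance, Fin e → F, inferInstance,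
      inferInstance, inferInstance, ρ, by simp, ?_, inferInstance, IsPGroup.of_card hcD, ?_⟩
    · intro a b h
      apply ULift.ext
      apply hΘ
      apply Units.ext
      exact Matrix.toLin'.injective h
    · rw [derivedSeries_zero]
      have : Nontrivial (ULift.{u} (Fin 1 → Multiplicative (ZMod p))) := by
        apply (Finite.one_lt_card_iff_nontrivial).mp
        rw [hcD, pow_one]; exact hp.out.one_lt
      exact top_ne_bot
  | succ i ih =>
    obtain ⟨D, _, V, _, _, _, ρ, hd, hρ, hfin, hpD, hds⟩ := ih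
    have hntV : Nontrivial V := by
      apply Module.nontrivial_of_finrank_pos (R := F)
      rw [hd]; exact Nat.mul_pos he (pow_pos hp.out.pos _)
    obtain ⟨a, ha⟩ := IsPGroup.iff_card.mp hpD
    refine ⟨D ≀ᵣ Multiplicative (ZMod p), inferInstance, Multiplicative (ZMod p) → V,
      inferInstance, inferInstance, inferInstance, wrRep ρ, ?_, wrRep_inj ρ hρ, inferInstance, ?_,
      wr_ne_bot g hg i hds⟩
    · rw [Module.finrank_pi_fintype, Finset.sum_const, hd, Finset.card_univ,
        ← Nat.card_eq_fintype_card, hc, smul_eq_mul, pow_succ]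
      ring
    · apply IsPGroup.of_card (n := a * p + 1)
      rw [RegularWreathProduct.card, ha, hc, ← pow_mul, ← pow_succ]

theorem exists_sub_GL [Fintype F] (p : ℕ) [hp : Fact p.Prime] (e : ℕ) (he : 0 < e)
    (hpe : p ∣ Fintype.card F ^ e - 1) (i n : ℕ) (hn : e * p ^ i ≤ n) :
    ∃ (D : Type u) (_ : Group D) (f : D →* Matrix.GeneralLinearGroup (Fin n) F),
      Function.Injective f ∧ IsPGroup p D ∧ derivedSeries D i ≠ ⊥ := by
  classical
  obtain ⟨D, _, V, _, _, _, ρ, hd, hρ, hfin, hpD, hds⟩ := exists_rep' (F := F) p e he hpe i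
  have hfr : Module.finrank F (V × (Fin (n - e * p ^ i) → F)) = n := by
    rw [Module.finrank_prod, hd, Module.finrank_fin_fun]
    omega
  let b := Module.finBasisOfFinrankEq F (V × (Fin (n - e * p ^ i) → F)) hfr
  refine ⟨D, inferInstance, (toGLn b).comp ρ.toHomUnits, (toGLn_inj b).comp ?_, hpD, hds⟩
  intro x y h
  exact hρ (congrArg Units.val h)

end Cfsg.Agent.Lib.Helper6.DLen
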