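import Mathlib
import Cfsg.Agent.Lib.Helper6.SylLarge

set_option autoImplicit false

namespace Cfsg.Agent.Lib.Helper6.DLen

open Cfsg.Agent.Lib.Helper6.SylLarge

theorem val_GLp (p q : ℕ) [hp : Fact p.Prime] (h2 : ¬ p ∣ q) (hq1 : 1 < q) (n : ℕ) :
    (∏ i : Fin n, (q ^ n - q ^ (i : ℕ))).factorization p
      = ∑ j ∈ Finset.range n, padicValNat p (q ^ (j + 1) - 1) := by
  rw [Fin.prod_univ_eq_prod_range (fun i => q ^ n - q ^ i) n]
  have hne : ∀ i ∈ Finset.range n, q ^ n - q ^ i ≠ 0 := by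
    intro i hi
    have := Nat.pow_lt_pow_right hq1 (Finset.mem_range.mp hi)
    omega
  rw [Nat.factorization_prod hne, Finsupp.finsetSum_apply]
  have key : ∀ i ∈ Finset.range n, (q ^ n - q ^ i).factorization p
      = (fun j => padicValNat p (q ^ (j + 1) - 1)) (n - 1 - i) := by
    intro i hi
    have hi' := Finset.mem_range.mp hi
    obtain ⟨j, hj⟩ : ∃ j, n - 1 - i = j := ⟨_, rfl⟩
    have hnj : n = i + (j + 1) := by omega
    have h1 : q ^ n - q ^ i = q ^ i * (q ^ (j + 1) - 1) := by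
      rw [hnj, pow_add, Nat.mul_sub, mul_one]
    have h2' : q ^ (j + 1) - 1 ≠ 0 := by
      have := Nat.one_lt_pow (show j + 1 ≠ 0 by omega) hq1
      omega
    have h3 : ¬ p ∣ q ^ i := fun h => h2 (hp.out.dvd_of_dvd_pow h)
    rw [h1, Nat.factorization_mul (pow_ne_zero _ (by omega)) h2', Finsupp.add_apply,
      Nat.factorization_eq_zero_of_not_dvd h3, zero_add, hj, Nat.factorization_def _ hp.out]
  rw [Finset.sum_congr rfl key,
    Finset.sum_range_reflect (fun j => padicValNat p (q ^ (j + 1) - 1)) n]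

theorem val_sum_p (p q : ℕ) [hp : Fact p.Prime] (hp2 : p ≠ 2) (hpq : ¬ p ∣ q) (hq1 : 1 < q)
    (n : ℕ) :
    ∑ j ∈ Finset.range n, padicValNat p (q ^ (j + 1) - 1)
      = (n / orderOf (q : ZMod p)) * padicValNat p (q ^ orderOf (q : ZMod p) - 1)
        + padicValNat p (n / orderOf (q : ZMod p)).factorial := by
  have he : 0 < orderOf (q : ZMod p) := d_pos hpq
  set e := orderOf (q : ZMod p) with hedef
  have hodd : Odd p := hp.out.odd_of_ne_two hp2
  induction n with
  | zero => simp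
  | succ n ih =>
    rw [Finset.sum_range_succ, ih]
    by_cases h : e ∣ n + 1
    · rw [Nat.succ_div_of_dvd h]
      obtain ⟨t, ht⟩ := h
      have ht0 : t ≠ 0 := by rintro rfl; simp at ht
      have h1 : n / e + 1 = t := by
        rw [← Nat.succ_div_of_dvd ⟨t, ht⟩, ht]
        exact Nat.mul_div_cancel_left t he
      have hx1 : 1 < q ^ e := Nat.one_lt_pow he.ne' hq1
      have hdv : p ∣ q ^ e - 1 := (dvd_iff hpq e).mpr (by rw [← hedef])
      have hnd : ¬ p ∣ q ^ e := fun h => hpq (hp.out.dvd_of_dvd_pow h)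
      have h2 := padicValNat.pow_sub_pow hodd hx1 hdv hnd ht0
      rw [one_pow, ← pow_mul] at h2
      rw [ht, h2, h1]
      have h3 : t.factorial = t * (n / e).factorial := by
        rw [← h1, Nat.factorial_succ]
      rw [h3, padicValNat.mul ht0 (Nat.factorial_ne_zero _), ← h1]
      ring
    · have h0 : padicValNat p (q ^ (n + 1) - 1) = 0 :=
        padicValNat.eq_zero_of_not_dvd (by rw [dvd_iff hpq, ← hedef]; exact h)
      rw [Nat.succ_div_of_not_dvd h, h0, add_zero]

end Cfsg.Agent.Lib.Helper6.DLen
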