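import Mathlib

set_option autoImplicit false
set_option linter.unusedSectionVars false

namespace Cfsg.Agent.Lib.Helper6.EPowSL2

open Matrix

section L1

variable {F : Type*} [Field F] {κ : Type*} [Fintype κ] [DecidableEq κ]

/-- block-diagonal action -/
noncomputable def Bk : (κ → GL (Fin 2) F) →* ((κ → Fin 2 → F) →ₗ[F] (κ → Fin 2 → F))ˣ :=
  MonoidHom.toHomUnits
  { toFun := fun f => LinearMap.pi (fun i => (Matrix.toLin' (f i).val) ∘ₗ LinearMap.proj i)
    map_one' := by
      apply LinearMap.ext; intro v; funext i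
      simp
    map_mul' := fun f g => by
      apply LinearMap.ext; intro v; funext i
      simp [Matrix.toLin'_mul] }

theorem Bk_apply (f : κ → GL (Fin 2) F) (v : κ → Fin 2 → F) (i : κ) :
    (Bk f).val v i = (f i).val *ᵥ v i := rfl

/-- permutation action -/
noncomputable def Pk : Equiv.Perm κ →* ((κ → Fin 2 → F) →ₗ[F] (κ → Fin 2 → F))ˣ :=
  MonoidHom.toHomUnits
  { toFun := fun σ => LinearMap.funLeft F (Fin 2 → F) (σ⁻¹ : Equiv.Perm κ)
    map_one' := by
      apply LinearMap.ext; intro v; funext i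
      simp [LinearMap.funLeft_apply]
    map_mul' := fun σ τ => by
      apply LinearMap.ext; intro v; funext i
      simp [LinearMap.funLeft_apply] }

theorem Pk_apply (σ : Equiv.Perm κ) (v : κ → Fin 2 → F) (i : κ) :
    (Pk σ).val v i = v (σ⁻¹ i) := rfl

theorem Pk_Bk (σ : Equiv.Perm κ) (f : κ → GL (Fin 2) F) :
    Pk σ * Bk f = Bk (fun i => f (σ⁻¹ i)) * Pk σ := by
  apply Units.ext; apply LinearMap.ext; intro v; funext i
  rfl

theorem Bk_eq_Pk {f : κ → GL (Fin 2) F} {σ : Equiv.Perm κ} (h : Bk f = Pk σ) :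
    σ = 1 := by
  by_contra hne
  obtain ⟨i, hi⟩ : ∃ i, σ⁻¹ i ≠ i := by
    by_contra hcon
    push Not at hcon
    apply hne
    have : σ⁻¹ = 1 := Equiv.ext hcon
    exact inv_eq_one.mp this
  have h1 : (Bk f).val (Pi.single (σ⁻¹ i) (fun _ => 1)) i 0
      = (Pk σ).val (Pi.single (σ⁻¹ i) (fun _ => 1)) i 0 := by rw [h]
  rw [Bk_apply, Pk_apply, Pi.single_eq_same, Pi.single_eq_of_ne hi.symm] at h1
  simp at h1

theorem Bk_inj : Function.Injective (Bk : (κ → GL (Fin 2) F) →* _) := by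
  intro f g h
  funext i
  apply Units.ext
  apply Matrix.mulVec_injective
  funext w
  have h1 : (Bk f).val (fun _ => w) i = (Bk g).val (fun _ => w) i := by rw [h]
  exact h1

theorem Pk_inj : Function.Injective
    (Pk : Equiv.Perm κ →* ((κ → Fin 2 → F) →ₗ[F] (κ → Fin 2 → F))ˣ) := by
  intro σ τ h
  have h1 : (Bk (1 : κ → GL (Fin 2) F)) = Pk (τ⁻¹ * σ) := by
    rw [map_one, map_mul, map_inv, h, inv_mul_cancel]
  have := Bk_eq_Pk h1
  exact (inv_mul_eq_one.mp this).symm

theorem det_Bk (f : κ → GL (Fin 2) F) : LinearMap.det (Bk f).val = ∏ i, (f i).val.det := by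
  have : (Bk f).val
      = LinearMap.pi (fun i => (Matrix.toLin' (f i).val).comp (LinearMap.proj i)) := rfl
  rw [this, LinearMap.det_pi]
  simp [LinearMap.det_toLin']

theorem det_P0 (σ : Equiv.Perm κ) : LinearMap.det (LinearMap.funLeft F F σ) ^ 2 = 1 := by
  have : LinearMap.funLeft F F σ = Matrix.toLin' (σ.permMatrix F) := by
    apply LinearMap.ext; intro v
    rw [Matrix.toLin'_apply]
    exact (PEquiv.toMatrix_toPEquiv_mulVec σ v).symm
  rw [this, LinearMap.det_toLin', Matrix.det_permutation]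
  rcases Int.units_eq_one_or (Equiv.Perm.sign σ) with h | h <;> simp [h]

/-- flip of coordinates -/
def flp : (κ → Fin 2 → F) ≃ₗ[F] (Fin 2 → κ → F) where
  toFun := fun v a i => v i a
  invFun := fun w i a => w a i
  map_add' := fun _ _ => rfl
  map_smul' := fun _ _ => rfl
  left_inv := fun _ => rfl
  right_inv := fun _ => rfl

theorem det_Pk (σ : Equiv.Perm κ) :
    LinearMap.det (Pk σ : ((κ → Fin 2 → F) →ₗ[F] (κ → Fin 2 → F))ˣ).val = 1 := by
  rw [← LinearMap.det_conj _ flp]
  have : ((flp : (κ → Fin 2 → F) ≃ₗ[F] (Fin 2 → κ → F)) : (κ → Fin 2 → F) →ₗ[F] (Fin 2 → κ → F))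
      ∘ₗ (Pk σ).val ∘ₗ ((flp : (κ → Fin 2 → F) ≃ₗ[F] (Fin 2 → κ → F)).symm :
        (Fin 2 → κ → F) →ₗ[F] (κ → Fin 2 → F))
      = LinearMap.pi (fun a => (LinearMap.funLeft F F (σ⁻¹ : Equiv.Perm κ)).comp
          (LinearMap.proj a)) := rfl
  rw [this, LinearMap.det_pi, Fin.prod_univ_two, ← pow_two, det_P0]

/-- a hom into `GL(V)` with determinant one, as a hom into `SL_n`. -/
noncomputable def mkSL {V : Type*} [AddCommGroup V] [Module F V] {n : ℕ}
    (b : Module.Basis (Fin n) F V) {H : Type*} [Group H] (φ : H →* (V →ₗ[F] V)ˣ)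
    (hφ : ∀ h, LinearMap.det (φ h).val = 1) : H →* SpecialLinearGroup (Fin n) F where
  toFun h := ⟨LinearMap.toMatrix b b (φ h).val, by rw [LinearMap.det_toMatrix, hφ]⟩
  map_one' := by
    apply Subtype.ext
    show LinearMap.toMatrix b b _ = 1
    rw [map_one]
    exact LinearMap.toMatrix_one b
  map_mul' g h := by
    apply Subtype.ext
    show LinearMap.toMatrix b b _ = LinearMap.toMatrix b b _ * LinearMap.toMatrix b b _
    rw [map_mul, Units.val_mul, LinearMap.toMatrix_mul]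

theorem mkSL_inj {V : Type*} [AddCommGroup V] [Module F V] {n : ℕ}
    (b : Module.Basis (Fin n) F V) {H : Type*} [Group H] (φ : H →* (V →ₗ[F] V)ˣ)
    (hφ : ∀ h, LinearMap.det (φ h).val = 1) (hinj : Function.Injective φ) :
    Function.Injective (mkSL b φ hφ) := by
  intro g h hgh
  have h1 : LinearMap.toMatrix b b (φ g).val = LinearMap.toMatrix b b (φ h).val :=
    congrArg Subtype.val hgh
  exact hinj (Units.ext ((LinearMap.toMatrix b b).injective h1))

end L1

end Cfsg.Agent.Lib.Helper6.EPowSL2
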