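import Mathlib
import Cfsg.Agent.Lib.Helper9.QuatRec

set_option autoImplicit false

namespace Cfsg.Agent.Lib.Helper6

open Subgroup

/-- Recognition of `3² : Q₈` among the groups of order 72. -/
theorem grp72 {G : Type*} [Group G] [Finite G] (hG : Nat.card G = 72) (n1 n2 a b : G)
    (h13 : n1 ^ 3 = 1) (h23 : n2 ^ 3 = 1) (hc : n1 * n2 = n2 * n1) (h1 : n1 ≠ 1)
    (h2 : n2 ∉ zpowers n1)
    (ha1 : a * n1 * a⁻¹ = n2⁻¹) (ha2 : a * n2 * a⁻¹ = n1) (ha4 : a ^ 4 = 1) (ha2' : a ^ 2 ≠ 1)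
    (hb2 : b * b = a ^ 2) (hba : b * a * b⁻¹ = a⁻¹) :
    ∃ (N : Subgroup G) (_ : N.Normal), Nat.card N = 9 ∧ (∀ x ∈ N, x ^ 3 = 1) ∧
      Nonempty (G ⧸ N ≃* QuaternionGroup 2) := by
  have : Fact (Nat.Prime 3) := ⟨by norm_num⟩
  have : Fact (Nat.Prime 2) := ⟨by norm_num⟩
  have hcomm : Commute n1 n2 := hc
  obtain ⟨N, hN⟩ : ∃ N : Subgroup G, N = closure {n1, n2} := ⟨_, rfl⟩
  have hn1 : n1 ∈ N := by rw [hN]; exact subset_closure (by simp)
  have hn2 : n2 ∈ N := by rw [hN]; exact subset_closure (by simp)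
  have hform : ∀ g ∈ N, ∃ i j : ℕ, g = n1 ^ i * n2 ^ j := by
    intro g hg
    rw [hN] at hg
    induction hg using closure_induction with
    | mem x hx =>
      rcases hx with rfl | rfl
      · exact ⟨1, 0, by simp⟩
      · exact ⟨0, 1, by simp⟩
    | one => exact ⟨0, 0, by simp⟩
    | mul x y _ _ hx hy =>
      obtain ⟨i, j, rfl⟩ := hx
      obtain ⟨k, l, rfl⟩ := hy
      refine ⟨i + k, j + l, ?_⟩
      rw [pow_add, pow_add]
      have := (hcomm.pow_pow k j).eq
      calc n1 ^ i * n2 ^ j * (n1 ^ k * n2 ^ l) = n1 ^ i * (n2 ^ j * n1 ^ k) * n2 ^ l := by group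
        _ = n1 ^ i * (n1 ^ k * n2 ^ j) * n2 ^ l := by rw [this]
        _ = _ := by group
    | inv x _ hx =>
      obtain ⟨i, j, rfl⟩ := hx
      refine ⟨2 * i, 2 * j, ?_⟩
      rw [inv_eq_iff_mul_eq_one]
      have e1 : n1 ^ i * n2 ^ j * (n1 ^ (2 * i) * n2 ^ (2 * j)) =
          n1 ^ i * (n2 ^ j * n1 ^ (2 * i)) * n2 ^ (2 * j) := by group
      rw [e1, ← (hcomm.pow_pow (2 * i) j).eq]
      have e2 : n1 ^ i * (n1 ^ (2 * i) * n2 ^ j) * n2 ^ (2 * j) =
          (n1 ^ 3) ^ i * (n2 ^ 3) ^ j := by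
        rw [← pow_mul, ← pow_mul, mul_assoc, mul_assoc, ← pow_add, ← mul_assoc, ← pow_add]
        congr 2 <;> ring
      rw [e2, h13, h23]
      simp
  have hexp : ∀ g ∈ N, g ^ 3 = 1 := by
    intro g hg
    obtain ⟨i, j, rfl⟩ := hform g hg
    rw [(hcomm.pow_pow i j).mul_pow, ← pow_mul, ← pow_mul, mul_comm i, mul_comm j, pow_mul,
      pow_mul, h13, h23]
    simp
  have hNp : IsPGroup 3 N := by
    rintro ⟨g, hg⟩
    refine ⟨1, ?_⟩
    apply Subtype.ext
    simpa using hexp g hg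
  have hcardN : Nat.card N = 9 := by
    obtain ⟨k, hk⟩ := IsPGroup.iff_card.mp hNp
    have hdvd : Nat.card N ∣ 72 := hG ▸ Subgroup.card_subgroup_dvd_card N
    have h3 : Nat.card (zpowers n1) = 3 := by
      rw [Nat.card_zpowers]
      exact orderOf_eq_prime h13 h1
    have hle : zpowers n1 ≤ N := zpowers_le.mpr hn1
    have hlt : 3 < Nat.card N := by
      by_contra hcon
      have := Subgroup.eq_of_le_of_card_ge hle (by rw [h3]; omega)
      apply h2
      rw [this]
      exact hn2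
    rw [hk] at hdvd hlt ⊢
    have hk2 : k < 3 := by
      by_contra hcon
      have : 3 ^ 3 ∣ 3 ^ k := pow_dvd_pow 3 (by omega)
      have := this.trans hdvd
      norm_num at this
    interval_cases k <;> simp_all
  have haN : a ∈ normalizer (N : Set G) := by
    apply Subgroup.mem_normalizer_fintype
    intro g hg
    obtain ⟨i, j, rfl⟩ := hform g hg
    have : a * (n1 ^ i * n2 ^ j) * a⁻¹ = (a * n1 * a⁻¹) ^ i * (a * n2 * a⁻¹) ^ j := by
      rw [conj_pow, conj_pow]; group
    rw [this, ha1, ha2]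
    exact N.mul_mem (N.pow_mem (N.inv_mem hn2) _) (N.pow_mem hn1 _)
  have hoa : orderOf a = 4 := by
    have := orderOf_eq_prime_pow (p := 2) (n := 1) (x := a) (by simpa using ha2') (by simpa using ha4)
    simpa using this
  have hfac : (Nat.card G).factorization 3 = 2 := by
    rw [hG, Nat.factorization_def _ (by norm_num : Nat.Prime 3)]
    have : (72 : ℕ) = 3 ^ 2 * 8 := by norm_num
    rw [this, padicValNat.mul (by norm_num) (by norm_num), padicValNat.prime_pow,
      padicValNat.eq_zero_of_not_dvd (by norm_num)]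
  obtain ⟨P, hP⟩ : ∃ P : Sylow 3 G, (P : Subgroup G) = N :=
    ⟨Sylow.ofCard N (by rw [hcardN, hfac]; norm_num), rfl⟩
  have hidx : (normalizer (N : Set G)).index = 1 := by
    have h1' := card_sylow_modEq_one 3 G
    rw [Sylow.card_eq_index_normalizer P] at h1'
    have hPN : (normalizer ((P : Subgroup G) : Set G)).index = (normalizer (N : Set G)).index := by
      rw [hP]
    have h1' : (normalizer (N : Set G)).index ≡ 1 [MOD 3] := hPN ▸ h1'
    have h9 : 9 ∣ Nat.card (normalizer (N : Set G)) := by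
      rw [← hcardN]
      exact Subgroup.card_dvd_of_le le_normalizer
    have h4 : 4 ∣ Nat.card (normalizer (N : Set G)) := by
      rw [← hoa, ← Subgroup.orderOf_mk a haN]
      exact orderOf_dvd_natCard _
    have h36 : 36 ∣ Nat.card (normalizer (N : Set G)) :=
      Nat.Coprime.mul_dvd_of_dvd_of_dvd (by norm_num : Nat.Coprime 9 4) h9 h4
    have hmul := Subgroup.card_mul_index (normalizer (N : Set G))
    rw [hG] at hmul
    obtain ⟨m, hm⟩ := h36
    rw [hm] at hmul
    have hm2 : m * (normalizer (N : Set G)).index = 2 := by nlinarith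
    have hd : (normalizer (N : Set G)).index ∣ 2 := ⟨m, by rw [← hm2, mul_comm]⟩
    rcases (Nat.dvd_prime Nat.prime_two).mp hd with h | h
    · exact h
    · rw [h] at h1'
      exact absurd h1' (by decide)
  have hnorm : N.Normal := by
    rw [← Subgroup.normalizer_eq_top_iff]
    exact Subgroup.index_eq_one.mp hidx
  refine ⟨N, hnorm, hcardN, hexp, ?_⟩
  have hq : Nat.card (G ⧸ N) = 4 * 2 := by
    have := Subgroup.card_eq_card_quotient_mul_card_subgroup N
    rw [hG, hcardN] at this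
    omega
  have hc2 : (QuotientGroup.mk a : G ⧸ N) ^ 2 ≠ 1 := by
    intro h
    have h' : a ^ 2 ∈ N := (QuotientGroup.eq_one_iff _).mp h
    have h6 := hexp _ h'
    apply ha2'
    have : a ^ 2 = (a ^ 2) ^ 3 * (a ^ 4)⁻¹ := by group
    rw [this, h6, ha4]
    simp
  have hoc : orderOf (QuotientGroup.mk a : G ⧸ N) = 2 * 2 := by
    have := orderOf_eq_prime_pow (p := 2) (n := 1) (x := (QuotientGroup.mk a : G ⧸ N))
      (by simpa using hc2) (by
        show (QuotientGroup.mk (a ^ (2 ^ (1 + 1))) : G ⧸ N) = 1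
        have : a ^ (2 ^ (1 + 1)) = 1 := by simpa using ha4
        rw [this]; rfl)
    simpa using this
  have hinv : (QuotientGroup.mk b : G ⧸ N) * QuotientGroup.mk a * (QuotientGroup.mk b)⁻¹ =
      (QuotientGroup.mk a)⁻¹ := by
    show (QuotientGroup.mk (b * a * b⁻¹) : G ⧸ N) = QuotientGroup.mk a⁻¹
    rw [hba]
  refine Cfsg.Agent.Lib.Helper9.nonempty_mulEquiv_quaternion 2 (QuotientGroup.mk a)
    (QuotientGroup.mk b) hoc ?_ ?_ hinv hq
  · intro hmem
    obtain ⟨k, hk⟩ := mem_zpowers_iff.mp hmem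
    apply hc2
    have hcm : (QuotientGroup.mk b : G ⧸ N) * QuotientGroup.mk a =
        QuotientGroup.mk a * QuotientGroup.mk b := by
      rw [← hk]
      exact ((Commute.refl _).zpow_left k).eq
    rw [hcm, mul_inv_cancel_right] at hinv
    rw [pow_two]
    nth_rewrite 1 [hinv]
    exact inv_mul_cancel _
  · show (QuotientGroup.mk (b * b) : G ⧸ N) = QuotientGroup.mk (a ^ 2)
    rw [hb2]

end Cfsg.Agent.Lib.Helper6
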